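import Mathlib
import Cfsg.Agent.Lib.Core.Basic

/-!
# Subnormal chains of given length (composition length without Jordan–Hölder)
-/

set_option autoImplicit false

namespace CfsgLib.PermS

open Subgroup CfsgLib.Core ArithmeticFunction

variable {G : Type*} [Group G]

/-- `Ch A l B`: there is a chain `A = H₀ < H₁ < ⋯ < H_l = B`, each term normal in the next. -/
inductive Ch (A : Subgroup G) : ℕ → Subgroup G → Prop
  | refl : Ch A 0 A
  | step {l : ℕ} {B C : Subgroup G} : Ch A l B → B < C → C ≤ normalizer (B : Set G) → Ch A (l + 1) C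

namespace Ch

variable {A B C : Subgroup G} {l m : ℕ}

theorem le (h : Ch A l B) : A ≤ B := by
  induction h with
  | refl => exact le_rfl
  | step _ h2 _ ih => exact ih.trans h2.le

theorem trans (h : Ch A l B) (h' : Ch B m C) : Ch A (l + m) C := by
  induction h' with
  | refl => exact h
  | step _ h2 h3 ih => exact ih.step h2 h3

theorem cons (h1 : A < B) (h2 : B ≤ normalizer (A : Set G)) (h : Ch B l C) : Ch A (l + 1) C := by
  rw [add_comm]; exact (refl.step h1 h2).trans h

theorem step' (h : Ch A l B) (h1 : B ≤ C) (h2 : C ≤ normalizer (B : Set G)) :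
    ∃ m, l ≤ m ∧ Ch A m C := by
  rcases h1.eq_or_lt with rfl | h3
  · exact ⟨l, le_rfl, h⟩
  · exact ⟨l + 1, by omega, h.step h3 h2⟩

theorem exists_bot (A : Subgroup G) : ∃ m, Ch ⊥ m A :=
  let ⟨m, _, h⟩ := (refl : Ch ⊥ 0 ⊥).step' (C := A) bot_le (by
    rw [normalizer_eq_top_iff.2 inferInstance]; exact le_top)
  ⟨m, h⟩

theorem eq_zero_of_bot (h : Ch A l ⊥) : l = 0 := by
  generalize hB : (⊥ : Subgroup G) = B at h
  cases h with
  | refl => rfl
  | step _ h2 _ => exact absurd (hB ▸ h2) not_lt_bot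

theorem split (h : Ch A l C) {N : Subgroup G} (hC : C ≤ normalizer (N : Set G)) :
    ∃ l₁ l₂, l ≤ l₁ + l₂ ∧ Ch (A ⊓ N) l₁ (C ⊓ N) ∧ Ch (A ⊔ N) l₂ (C ⊔ N) := by
  induction h with
  | refl => exact ⟨0, 0, le_rfl, refl, refl⟩
  | @step l B C _ h2 h3 ih =>
    obtain ⟨l₁, l₂, h4, h5, h6⟩ := ih (h2.le.trans hC)
    have n1 : C ⊓ N ≤ normalizer ((B ⊓ N : Subgroup G) : Set G) :=
      (inf_le_inf h3 le_normalizer).trans inf_normalizer_le_normalizer_inf
    have n2 : C ⊔ N ≤ normalizer ((B ⊔ N : Subgroup G) : Set G) :=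
      sup_le ((le_inf h3 hC).trans (normalizer_inf_le_normalizer_sup B N))
        (le_sup_right.trans le_normalizer)
    rcases (inf_le_inf_right N h2.le).eq_or_lt with e1 | e1
    · rcases (sup_le_sup_right h2.le N).eq_or_lt with e2 | e2
      · refine absurd ?_ h2.not_ge
        have := sup_inf_assoc_of_le_normalizer h2.le (h2.le.trans hC)
        rw [e2, inf_eq_right.2 le_sup_left, inf_comm N C, ← e1] at this
        exact this.le.trans (sup_le le_rfl inf_le_left)
      · exact ⟨l₁, l₂ + 1, by omega, e1 ▸ h5, h6.step e2 n2⟩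
    · obtain ⟨m, hm, h7⟩ := h6.step' (sup_le_sup_right h2.le N) n2
      exact ⟨l₁ + 1, m, by omega, h5.step e1 n1, h7⟩

theorem inf (h : Ch A l B) {M N : Subgroup G} (hNA : N ≤ A) (hB : B ≤ N ⊔ M)
    (hM : M ≤ normalizer (N : Set G)) : Ch (A ⊓ M) l (B ⊓ M) := by
  induction h with
  | refl => exact refl
  | @step l B C h1 h2 h3 ih =>
    refine (ih (h2.le.trans hB)).step (lt_of_le_of_ne (inf_le_inf_right M h2.le) fun e => ?_)
      ((inf_le_inf h3 le_normalizer).trans inf_normalizer_le_normalizer_inf)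
    have := sup_inf_assoc_of_le_normalizer' ((hNA.trans h1.le).trans h2.le) hM
    rw [inf_eq_right.2 hB, inf_comm M C, ← e] at this
    exact h2.not_ge (this.le.trans (sup_le (hNA.trans h1.le) inf_le_left))

theorem map {G' : Type*} [Group G'] (h : Ch A l B) (f : G →* G') (hf : f.ker ≤ A) :
    Ch (A.map f) l (B.map f) := by
  induction h with
  | refl => exact refl
  | @step l B C h1 h2 h3 ih =>
    refine ih.step (lt_of_le_of_ne (map_mono h2.le) fun e => h2.ne ?_)
      ((map_mono h3).trans (le_normalizer_map f))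
    rw [← comap_map_eq_self (hf.trans h1.le), e, comap_map_eq_self ((hf.trans h1.le).trans h2.le)]

theorem comap {G' : Type*} [Group G'] (h : Ch A l B) (f : G' →* G) (hf : B ≤ f.range) :
    Ch (A.comap f) l (B.comap f) := by
  induction h with
  | refl => exact refl
  | @step l B C h1 h2 h3 ih =>
    refine (ih (h2.le.trans hf)).step (lt_of_le_of_ne (comap_mono h2.le) fun e => h2.ne ?_)
      ((comap_mono h3).trans (le_normalizer_comap f))
    rw [← map_comap_eq_self (h2.le.trans hf), e, map_comap_eq_self hf]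

theorem subtype (h : Ch ⊥ l B) : Ch (⊥ : Subgroup B) l ⊤ := by
  have := h.comap B.subtype (by simp)
  rwa [comap_subtype, bot_subgroupOf, comap_subtype, subgroupOf_self] at this

theorem card_step [Finite G] (h : B < C) : ∃ k, 2 ≤ k ∧ Nat.card C = Nat.card B * k := by
  refine ⟨B.relIndex C, ?_, (card_mul_relIndex_of_le h.le).symm⟩
  have h1 : B.relIndex C ≠ 1 := fun e => h.not_ge (relIndex_eq_one.1 e)
  have h2 : B.relIndex C ≠ 0 := index_ne_zero_of_finite
  omega

theorem two_pow_le [Finite G] (h : Ch A l B) : 2 ^ l ≤ Nat.card B := by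
  induction h with
  | refl => exact Nat.card_pos
  | step _ h2 _ ih =>
    obtain ⟨k, hk, e⟩ := card_step h2
    rw [e, pow_succ]
    exact Nat.mul_le_mul ih hk

theorem le_cardFactors [Finite G] (h : Ch A l B) : l ≤ cardFactors (Nat.card B) := by
  induction h with
  | refl => exact Nat.zero_le _
  | step _ h2 _ ih =>
    obtain ⟨k, hk, e⟩ := card_step h2
    rw [e, cardFactors_mul Nat.card_pos.ne' (by omega)]
    have : 0 < cardFactors k := cardFactors_pos_iff_one_lt.2 hk
    omega

theorem of_fin (l : ℕ) (H : Fin (l + 1) → Subgroup G)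
    (hchain : ∀ i : Fin l, H i.castSucc < H i.succ ∧ ((H i.castSucc).subgroupOf (H i.succ)).Normal) :
    Ch (H 0) l (H (Fin.last l)) := by
  have : ∀ i : Fin (l + 1), Ch (H 0) i (H i) := by
    intro i
    induction i using Fin.induction with
    | zero => exact refl
    | succ i ih =>
      exact ih.step (hchain i).1 ((normal_subgroupOf_iff_le_normalizer (hchain i).1.le).1 (hchain i).2)
  exact this (Fin.last l)

end Ch

end CfsgLib.PermS
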