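import Mathlib
import Cfsg.Agent.Lib.PermS.Chain
import Cfsg.Agent.Lib.Comp.FStar
import Cfsg.Agent.Lib.Core.Commutator
import Cfsg.Agent.Lib.LAE.Sylow

/-!
# The layer of a Fitting-free group: supports, composition length and covering radius
-/

set_option autoImplicit false

namespace CfsgLib.PermS

open Cfsg Subgroup CfsgLib.Core CfsgLib.Comp CfsgLib.LAE Finset
open scoped commutatorElement

variable {G : Type*} [Group G]

/-- the components of `G` -/
abbrev Cmp (G : Type*) [Group G] := {L : Subgroup G // IsComponent L}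

noncomputable instance fintypeCmp [Finite G] : Fintype (Cmp G) := Fintype.ofFinite _

theorem Cmp.le_cent {K L : Cmp G} (h : K ≠ L) : K.1 ≤ centralizer (L.1 : Set G) :=
  comp_le_centralizer_of_ne K.2 L.2 fun e => h (Subtype.ext e)

theorem layer_le_normalizer_cent (L : Cmp G) :
    layer G ≤ normalizer ((centralizer (L.1 : Set G) : Subgroup G) : Set G) :=
  (layer_le_normalizer_comp L.2).trans (Core.normalizer_le_normalizer_centralizer _)

theorem exists_proj (L : Cmp G) {x : G} (hx : x ∈ layer G) :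
    ∃ t ∈ L.1, t⁻¹ * x ∈ centralizer (L.1 : Set G) := by
  have h : x ∈ L.1 ⊔ centralizer (L.1 : Set G) :=
    ((layer_eq_comp_sup_centralizer L.2).le.trans (sup_le_sup_left inf_le_right _)) hx
  obtain ⟨t, ht, c, hc, rfl⟩ := (mem_sup_of_le_normalizer_right
    ((comp_le_layer L.2).trans (layer_le_normalizer_cent L))).1 h
  exact ⟨t, ht, by simpa using hc⟩

theorem exists_crt [Finite G] (t : Cmp G → G) (ht : ∀ L, t L ∈ L.1) :
    ∃ x ∈ layer G, ∀ L, (t L)⁻¹ * x ∈ centralizer (L.1 : Set G) := by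
  classical
  have : ∀ S : Finset (Cmp G), ∃ x ∈ layer G, (∀ L ∈ S, (t L)⁻¹ * x ∈ centralizer (L.1 : Set G)) ∧
      ∀ L ∉ S, x ∈ centralizer (L.1 : Set G) := by
    intro S
    induction S using Finset.induction_on with
    | empty => exact ⟨1, one_mem _, by simp, fun L _ => one_mem _⟩
    | insert K S hK ih =>
      obtain ⟨x, hx, h1, h2⟩ := ih
      refine ⟨x * t K, mul_mem hx (comp_le_layer K.2 (ht K)), fun L hL => ?_, fun L hL => ?_⟩
      · rcases mem_insert.1 hL with rfl | hL
        · have := (layer_le_normalizer_cent L (inv_mem (comp_le_layer L.2 (ht L))) x).1 (h2 L hK)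
          simpa [mul_assoc] using this
        · rw [← mul_assoc]
          exact mul_mem (h1 L hL) (Cmp.le_cent (fun e : K = L => hK (e ▸ hL)) (ht K))
      · rw [mem_insert, not_or] at hL
        exact mul_mem (h2 L hL.2) (Cmp.le_cent (Ne.symm hL.1) (ht K))
  obtain ⟨x, hx, h, -⟩ := this univ
  exact ⟨x, hx, fun L => h L (mem_univ _)⟩

open Classical in
/-- the number of components not centralised by `x` -/
noncomputable def suppCard [Finite G] (x : G) : ℕ :=
  #(univ.filter fun L : Cmp G => x ∉ centralizer (L.1 : Set G))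

theorem suppCard_conj [Finite G] (g x : G) : suppCard (g * x * g⁻¹) = suppCard x := by
  classical
  have key : ∀ g x : G, suppCard x ≤ suppCard (g * x * g⁻¹) := by
    intro g x
    refine card_le_card_of_injOn (fun L => ⟨_, comp_map_conj L.2 g⟩) (fun L hL => ?_)
      fun L _ K _ e => Subtype.ext (map_injective (MulAut.conj g).injective (congrArg Subtype.val e))
    simp only [coe_filter, mem_univ, true_and, Set.mem_ofPred_eq] at hL ⊢
    refine fun h => hL fun y hy => ?_
    have h1 : g * y * g⁻¹ * (g * x * g⁻¹) = g * x * g⁻¹ * (g * y * g⁻¹) := h _ ⟨y, hy, rfl⟩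
    have h2 : g * (y * x) * g⁻¹ = g * (x * y) * g⁻¹ := by simpa [mul_assoc] using h1
    exact mul_left_cancel (mul_right_cancel h2)
  refine le_antisymm ?_ (key g x)
  simpa [mul_assoc] using key g⁻¹ (g * x * g⁻¹)

theorem suppCard_mul_le [Finite G] (K : Cmp G) {t : G} (ht : t ∈ K.1) (x : G) :
    suppCard (t * x) ≤ suppCard x + 1 := by
  classical
  refine le_trans (card_le_card fun L hL => ?_) (card_insert_le K _)
  simp only [mem_insert, mem_filter, mem_univ, true_and] at hL ⊢
  by_contra h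
  push Not at h
  exact hL (mul_mem (Cmp.le_cent (Ne.symm h.1) ht) h.2)

theorem exists_suppCard_pred [Finite G] {x : G} (hx : x ∈ layer G) {j : ℕ} (h : suppCard x = j + 1) :
    ∃ (K : Cmp G) (t : G), t ∈ K.1 ∧ suppCard (t⁻¹ * x) ≤ j := by
  classical
  obtain ⟨K, hK⟩ := card_pos.1 (show 0 < suppCard x by omega)
  obtain ⟨t, ht, ht'⟩ := exists_proj K hx
  refine ⟨K, t, ht, ?_⟩
  have : j = #((univ.filter fun L : Cmp G => x ∉ centralizer (L.1 : Set G)).erase K) := by
    rw [card_erase_of_mem hK]; unfold suppCard at h; omega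
  rw [this]
  refine card_le_card fun L hL => ?_
  simp only [mem_erase, mem_filter, mem_univ, true_and] at hL ⊢
  have hne : L ≠ K := fun e => hL (e ▸ ht')
  exact ⟨hne, fun h => hL (mul_mem (inv_mem (Cmp.le_cent hne.symm ht)) h)⟩

theorem ch_comp_le_one [Finite G] (hF : fittingSubgroup G = ⊥) (L : Cmp G) {A : Subgroup G} {l : ℕ}
    (h : Ch A l L.1) : l ≤ 1 := by
  generalize hL : L.1 = C at h
  cases h with
  | refl => omega
  | @step l B _ h1 h2 h3 =>
    subst hL
    rcases qs_sub_normal L.2.2 h2.le h3 with e | e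
    · exact absurd e h2.ne
    · have : B = ⊥ := le_bot_iff.1 (hF ▸ (le_inf h2.le e).trans (comp_inf_centralizer_le_fit L.2))
      rw [this] at h1
      rw [h1.eq_zero_of_bot]

theorem ch_layer_le [Finite G] (hF : fittingSubgroup G = ⊥) {l : ℕ} (h : Ch ⊥ l (layer G)) :
    l ≤ Fintype.card (Cmp G) := by
  classical
  have key : ∀ (S : Finset (Cmp G)) (l : ℕ), Ch ⊥ l (S.sup fun L => L.1) → l ≤ #S := by
    intro S
    induction S using Finset.induction_on with
    | empty => intro l h; exact (Ch.eq_zero_of_bot h).le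
    | insert K S hK ih =>
      intro l h
      have hn : K.1 ≤ normalizer ((S.sup fun L => L.1 : Subgroup G) : Set G) :=
        (le_centralizer_iff.1 (Finset.sup_le fun L hL => Cmp.le_cent fun e : L = K => hK (e ▸ hL))).trans
          (centralizer_le_normalizer _)
      rw [sup_insert] at h
      obtain ⟨l₁, l₂, h1, h2, h3⟩ := h.split (sup_le hn le_normalizer)
      rw [bot_inf_eq, inf_eq_right.2 le_sup_right] at h2
      generalize (S.sup fun L => L.1) = N at *
      have h4 := h3.inf (M := K.1) le_sup_right (sup_le (sup_comm _ _).le le_sup_left) hn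
      rw [inf_eq_right.2 (show K.1 ≤ K.1 ⊔ N ⊔ N from le_sup_left.trans le_sup_left)] at h4
      have := ih _ h2
      have := ch_comp_le_one hF K h4
      rw [card_insert_of_notMem hK]
      omega
  refine key univ l ?_
  have : layer G = univ.sup fun L : Cmp G => L.1 :=
    le_antisymm (layer_le_iff.2 fun L hL => Finset.le_sup (f := fun L : Cmp G => L.1) (mem_univ ⟨L, hL⟩))
      (Finset.sup_le fun L _ => comp_le_layer L.2)
  exact this ▸ h

section cover

variable {H : Subgroup G}

theorem dichotomy (hH : H ≤ layer G) (L : Cmp G) (hL : L.1 ≤ H ⊔ centralizer (L.1 : Set G))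
    {A : Subgroup G} (hA : A ≤ H) (hn : H ≤ normalizer (A : Set G)) :
    A ≤ centralizer (L.1 : Set G) ∨ L.1 ≤ A ⊔ centralizer (L.1 : Set G) := by
  have h1 : L.1 ≤ normalizer ((A ⊔ centralizer (L.1 : Set G) : Subgroup G) : Set G) :=
    hL.trans (sup_le ((le_inf hn (hH.trans (layer_le_normalizer_cent L))).trans
      (normalizer_inf_le_normalizer_sup _ _)) (le_sup_right.trans le_normalizer))
  rcases qs_sub_normal L.2.2 (N := L.1 ⊓ (A ⊔ centralizer (L.1 : Set G))) inf_le_left
    ((le_inf le_normalizer h1).trans inf_normalizer_le_normalizer_inf) with e | e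
  · exact Or.inr (inf_eq_left.1 e)
  · refine Or.inl fun a ha => ?_
    obtain ⟨t, ht, ht'⟩ := exists_proj L (hH (hA ha))
    have : t ∈ centralizer (L.1 : Set G) := e ⟨ht, by
      simpa using mul_mem (mem_sup_left ha) (inv_mem (mem_sup_right ht') :
        _ ∈ A ⊔ centralizer (L.1 : Set G))⟩
    simpa using mul_mem this ht'

theorem prime_cent (hH : H ≤ layer G) (L : Cmp G) (hL : L.1 ≤ H ⊔ centralizer (L.1 : Set G))
    {A B : Subgroup G} (hA : A ≤ H) (hnA : H ≤ normalizer (A : Set G)) (hB : B ≤ H)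
    (hnB : H ≤ normalizer (B : Set G)) (h : A ⊓ B ≤ centralizer (L.1 : Set G)) :
    A ≤ centralizer (L.1 : Set G) ∨ B ≤ centralizer (L.1 : Set G) := by
  rcases dichotomy hH L hL hA hnA with h1 | h1
  · exact Or.inl h1
  rcases dichotomy hH L hL hB hnB with h2 | h2
  · exact Or.inr h2
  refine absurd ?_ (comp_not_le_centralizer L.2)
  have nA := (hA.trans hH).trans (layer_le_normalizer_cent L)
  have nB := (hB.trans hH).trans (layer_le_normalizer_cent L)
  rw [← comp_perfect L.2]
  refine (commutator_mono h1 h2).trans ?_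
  rw [comp_perfect L.2]
  refine commutator_sup_left_le nA le_normalizer (commutator_sup_right_le nB le_normalizer ?_ ?_) ?_
  · exact (le_inf (commutator_le_left_of_le_normalizer (hB.trans hnA))
      (commutator_le_right_of_le_normalizer (hA.trans hnB))).trans h
  · exact commutator_le_right_of_le_normalizer nA
  · exact commutator_le_left_of_le_normalizer (sup_le nB le_normalizer)

theorem ker_eq_of_le (hH : H ≤ layer G) (L L' : Cmp G) (hL : L.1 ≤ H ⊔ centralizer (L.1 : Set G))
    (hL' : L'.1 ≤ H ⊔ centralizer (L'.1 : Set G))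
    (h : H ⊓ centralizer (L'.1 : Set G) ≤ centralizer (L.1 : Set G)) :
    H ⊓ centralizer (L'.1 : Set G) = H ⊓ centralizer (L.1 : Set G) := by
  refine le_antisymm (le_inf inf_le_left h) (le_inf inf_le_left ?_)
  have nL := hH.trans (layer_le_normalizer_cent L)
  have nL' := hH.trans (layer_le_normalizer_cent L')
  refine (dichotomy hH L' hL' inf_le_left
    ((le_inf le_normalizer nL).trans inf_normalizer_le_normalizer_inf)).resolve_right fun h1 => ?_
  refine comp_not_le_centralizer L.2 (hL.trans (sup_le (fun x hx => ?_) le_rfl))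
  obtain ⟨t, ht, ht'⟩ := exists_proj L' (hH hx)
  obtain ⟨k, hk, c, hc, rfl⟩ := (mem_sup_of_le_normalizer_right (inf_le_left.trans nL')).1 (h1 ht)
  have : k⁻¹ * x ∈ centralizer (L.1 : Set G) :=
    h ⟨H.mul_mem (H.inv_mem hk.1) hx, by simpa [mul_assoc] using mul_mem hc ht'⟩
  simpa using mul_mem hk.2 this

theorem ch_kernels (hH : H ≤ layer G) (S : Finset (Subgroup G))
    (hS : ∀ K ∈ S, ∃ L : Cmp G, L.1 ≤ H ⊔ centralizer (L.1 : Set G) ∧
      K = H ⊓ centralizer (L.1 : Set G)) : ∃ s, #S ≤ s ∧ Ch ⊥ s H := by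
  classical
  have key : H ≤ normalizer ((H ⊓ S.inf id : Subgroup G) : Set G) ∧ Ch (H ⊓ S.inf id) #S H ∧
      ∀ L : Cmp G, L.1 ≤ H ⊔ centralizer (L.1 : Set G) → H ⊓ S.inf id ≤ centralizer (L.1 : Set G) →
        H ⊓ centralizer (L.1 : Set G) ∈ S := by
    induction S using Finset.induction_on with
    | empty =>
      simp only [inf_empty, le_top, inf_of_le_left, card_empty]
      exact ⟨le_normalizer, Ch.refl, fun L hL h =>
        absurd (hL.trans (sup_le h le_rfl)) (comp_not_le_centralizer L.2)⟩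
    | insert K S hK ih =>
      obtain ⟨h1, h2, h3⟩ := ih fun K hK => hS K (mem_insert_of_mem hK)
      obtain ⟨L₀, hL₀, rfl⟩ := hS K (mem_insert_self _ _)
      have n0 : H ≤ normalizer ((H ⊓ centralizer (L₀.1 : Set G) : Subgroup G) : Set G) :=
        (le_inf le_normalizer (hH.trans (layer_le_normalizer_cent L₀))).trans
          inf_normalizer_le_normalizer_inf
      have e : H ⊓ (insert (H ⊓ centralizer (L₀.1 : Set G)) S).inf id =
          (H ⊓ centralizer (L₀.1 : Set G)) ⊓ (H ⊓ S.inf id) := by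
        rw [inf_insert, id, inf_left_comm]
      have n1 := (le_inf n0 h1).trans inf_normalizer_le_normalizer_inf
      rw [e, card_insert_of_notMem hK]
      refine ⟨n1, h2.cons (lt_of_le_of_ne inf_le_right fun e' => ?_) (inf_le_left.trans n1),
        fun L hL h => ?_⟩
      · exact hK (h3 L₀ hL₀ (e'.ge.trans (inf_le_left.trans inf_le_right)))
      · rcases prime_cent hH L hL inf_le_left n0 inf_le_left h1 h with h4 | h4
        · exact ker_eq_of_le hH L L₀ hL hL₀ h4 ▸ mem_insert_self _ _
        · exact mem_insert_of_mem (h3 L hL h4)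
  obtain ⟨m, hm⟩ := Ch.exists_bot (H ⊓ S.inf id)
  exact ⟨m + #S, by omega, hm.trans key.2.1⟩

theorem exists_coloring {α : Type*} (S : Finset α) :
    ∃ c : α → Fin 4, ∀ i, 4 * #(S.filter fun a => c a = i) ≤ #S + 3 := by
  classical
  let e : α → ℕ := fun a => if h : a ∈ S then S.equivFin ⟨a, h⟩ else 0
  have he : ∀ a ∈ S, e a < #S := fun a ha => by simp [e, ha]
  have hinj : ∀ a ∈ S, ∀ b ∈ S, e a = e b → a = b := fun a ha b hb h => by
    simpa [e, ha, hb, Fin.val_inj] using h
  refine ⟨fun a => ⟨e a % 4, Nat.mod_lt _ (by norm_num)⟩, fun i => ?_⟩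
  have := card_le_card_of_injOn
    (s := S.filter fun a => (⟨e a % 4, Nat.mod_lt _ (by norm_num)⟩ : Fin 4) = i)
    (t := range ((#S + 3) / 4)) (fun a => e a / 4)
    (fun a ha => by have := he a (mem_filter.1 ha).1; simp only [coe_range, Set.mem_Iio]; omega)
    (fun a ha b hb h => hinj a (mem_filter.1 ha).1 b (mem_filter.1 hb).1 (by
      have h1 := congrArg Fin.val ((mem_filter.1 ha).2.trans (mem_filter.1 hb).2.symm)
      simp only at h h1
      omega))
  rw [card_range] at this
  beta_reduce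
  omega

theorem four_le_card_comp [Finite G] (L : Cmp G) : ∃ f : Fin 4 → L.1, Function.Injective f := by
  have := Fintype.ofFinite L.1
  refine (Function.Embedding.nonempty_of_card_le (α := Fin 4) (β := L.1) ?_).elim fun f => ⟨f, f.2⟩
  by_contra h
  suffices IsCyclic L.1 from qs_not_isMulCommutative L.2.2 IsCyclic.isMulCommutative
  rw [Fintype.card_fin, ← Nat.card_eq_fintype_card] at h
  have : 0 < Nat.card L.1 := Nat.card_pos
  have := Fact.mk Nat.prime_three
  rcases (by omega : Nat.card L.1 = 1 ∨ Nat.card L.1 = 2 ∨ Nat.card L.1 = 3) with e | e | e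
  · exact isCyclic_of_card_dvd_prime (p := 2) (by rw [e]; try norm_num)
  · exact isCyclic_of_card_dvd_prime (p := 2) (by rw [e]; try norm_num)
  · exact isCyclic_of_card_dvd_prime (p := 3) (by rw [e]; try norm_num)

/-- covering radius of a subgroup of the layer -/
theorem exists_far [Finite G] (hF : fittingSubgroup G = ⊥) (hH : H ≤ layer G) :
    ∃ s, Ch ⊥ s H ∧ ∃ x ∈ layer G, ∀ h ∈ H,
      3 * Fintype.card (Cmp G) ≤ 4 * suppCard (x * h) + 3 * s := by
  classical
  set J := univ.filter fun L : Cmp G => L.1 ≤ H ⊔ centralizer (L.1 : Set G) with hJ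
  set κ : Cmp G → Subgroup G := fun L => H ⊓ centralizer (L.1 : Set G) with hκ
  obtain ⟨s, hs, hch⟩ := ch_kernels hH (J.image κ) fun K hK => by
    obtain ⟨L, hL, rfl⟩ := mem_image.1 hK
    exact ⟨L, (mem_filter.1 hL).2, rfl⟩
  refine ⟨s, hch, ?_⟩
  have hw : ∀ K : Subgroup G, ∃ w : Fin 4 → G, K ∈ J.image κ →
      (∀ i, w i ∈ H) ∧ ∀ i j, (w i)⁻¹ * w j ∈ K → i = j := by
    intro K
    by_cases hK : K ∈ J.image κ
    swap
    · exact ⟨1, fun h => absurd h hK⟩
    obtain ⟨L, hL, rfl⟩ := mem_image.1 hK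
    obtain ⟨f, hf⟩ := four_le_card_comp L
    have h1 : ∀ i, ∃ w ∈ H, ∃ c ∈ centralizer (L.1 : Set G), w * c = f i := fun i =>
      (mem_sup_of_le_normalizer_right (hH.trans (layer_le_normalizer_cent L))).1
        ((mem_filter.1 hL).2 (f i).2)
    choose w hw c hc hwc using h1
    refine ⟨w, fun _ => ⟨hw, fun i j hij => hf (Subtype.ext ?_)⟩⟩
    have h2 : (f i : G)⁻¹ * f j ∈ L.1 ⊓ centralizer (L.1 : Set G) := by
      refine ⟨L.1.mul_mem (L.1.inv_mem (f i).2) (f j).2, ?_⟩
      rw [← hwc, ← hwc]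
      simpa [mul_assoc] using mul_mem (mul_mem (inv_mem (hc i)) hij.2) (hc j)
    have h3 := comp_inf_centralizer_le_fit L.2 h2
    rw [hF, mem_bot] at h3
    exact inv_mul_eq_one.1 h3
  choose w hw using hw
  choose c hc using fun K => exists_coloring (J.filter fun L => κ L = K)
  have ht : ∀ L : Cmp G, ∃ t ∈ L.1, (L ∈ J → t⁻¹ * w (κ L) (c (κ L) L) ∈ centralizer (L.1 : Set G)) ∧
      (L ∉ J → t ∉ H ⊔ centralizer (L.1 : Set G)) := by
    intro L
    by_cases hL : L ∈ J
    · obtain ⟨t, h1, h2⟩ := exists_proj L (hH ((hw _ (mem_image_of_mem κ hL)).1 (c (κ L) L)))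
      exact ⟨t, h1, fun _ => h2, fun h => absurd hL h⟩
    · obtain ⟨t, h1, h2⟩ := SetLike.not_le_iff_exists.1 fun h => hL (mem_filter.2 ⟨mem_univ _, h⟩)
      exact ⟨t, h1, fun h => absurd h hL, fun _ => h2⟩
  choose t ht ht1 ht2 using ht
  obtain ⟨x, hx, hxt⟩ := exists_crt t ht
  refine ⟨x, hx, fun h hh => ?_⟩
  set A := univ.filter fun L : Cmp G => x * h ∈ centralizer (L.1 : Set G) with hA
  have hAJ : A ⊆ J := by
    intro L hL
    by_contra hLJ
    refine ht2 L hLJ ?_
    have := mul_mem (mul_mem (mem_sup_right (mem_filter.1 hL).2) (mem_sup_left (H.inv_mem hh)))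
      (inv_mem (mem_sup_right (hxt L) : _ ∈ H ⊔ centralizer (L.1 : Set G)))
    simpa using this
  have hAw : ∀ L ∈ A, w (κ L) (c (κ L) L) * h ∈ κ L := by
    intro L hL
    have h1 := (hw _ (mem_image_of_mem κ (hAJ hL))).1 (c (κ L) L)
    refine ⟨H.mul_mem h1 hh, ?_⟩
    have h3 := (layer_le_normalizer_cent L hx _).1 (mul_mem (inv_mem (hxt L)) (ht1 L (hAJ hL)))
    simpa [mul_assoc] using mul_mem h3 (mem_filter.1 hL).2
  have h1 : ∀ K ∈ J.image κ, 4 * #(A.filter fun L => κ L = K) ≤ #(J.filter fun L => κ L = K) + 3 := by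
    intro K hK
    rcases (A.filter fun L => κ L = K).eq_empty_or_nonempty with e | ⟨L₀, hL₀⟩
    · simp [e]
    refine le_trans (Nat.mul_le_mul_left 4 (card_le_card fun L hL => ?_)) (hc K (c K L₀))
    obtain ⟨h2, h3⟩ := mem_filter.1 hL
    obtain ⟨h4, h5⟩ := mem_filter.1 hL₀
    refine mem_filter.2 ⟨mem_filter.2 ⟨hAJ h2, h3⟩, (hw K hK).2 _ _ ?_⟩
    have h6 := hAw L h2
    have h7 := hAw L₀ h4
    rw [h3] at h6
    rw [h5] at h7
    have h8 : H ≤ normalizer (K : Set G) := h3 ▸
      (le_inf le_normalizer (hH.trans (layer_le_normalizer_cent L))).trans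
        inf_normalizer_le_normalizer_inf
    simpa [mul_assoc] using (h8 hh _).1 (K.mul_mem (K.inv_mem h6) h7)
  have h2 := sum_le_sum h1
  rw [← mul_sum, ← card_eq_sum_card_fiberwise (fun L hL => mem_image_of_mem κ (hAJ hL)),
    sum_add_distrib, ← card_eq_sum_card_image, sum_const, smul_eq_mul] at h2
  have h3 : #A + suppCard (x * h) = Fintype.card (Cmp G) := by
    rw [← card_univ]; exact card_filter_add_card_filter_not _
  have h4 : #J ≤ Fintype.card (Cmp G) := card_le_univ _
  omega

end cover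

end CfsgLib.PermS
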